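import Cfsg.Agent.H352.Dl.PGrp
import Cfsg.Agent.H600.AltIM
import Cfsg.Agent.H654.Two.AltRow

/-!
# The alternating groups for `FactDl` (task DL-ALT, helper352)

`row_alt`, `row_alt'` : the derived length of a Sylow `p`-subgroup of `A_n` is at most the number of
`Aut`-orbits of irreducible characters of degree divisible by `p`.
-/

set_option autoImplicit false

namespace Cfsg.Agent.H352.Dl

open Cfsg Cfsg.Agent.H246.Dl Cfsg.Agent.H654.Two Cfsg.Agent.H600.AltDeg Cfsg.Agent.Characters.Core

/-- Many characters from characters with pairwise different invariants. -/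
theorem many_of_has {n : ℕ} (hn : 7 ≤ n) {p m : ℕ} (Q : Fin m → ℤ) (hQ : Function.Injective Q)
    (h : ∀ i, Has p n (Q i)) : Many p (alternatingGroup (Fin n)) m := by
  choose θ h1 h2 using h
  refine ⟨θ, h2, fun i j hij σ => ?_⟩
  by_contra hno
  push Not at hno
  obtain ⟨g, hg⟩ := (Equiv.Perm.exists_with_cycleType_iff (α := Fin n) (m := {3})).2
    ⟨by rw [Fintype.card_fin]; simp; omega, by simp⟩
  have hg3 : g.IsThreeCycle := hg
  have hgA : g ∈ alternatingGroup (Fin n) := hg3.mem_alternatingGroup
  have e1 := h1 i (σ ⟨g, hgA⟩) (Cfsg.Agent.StandardComponent.AltAut.isThreeCycle_map hn σ hg3)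
  have e2 := h1 j ⟨g, hgA⟩ hg3
  rw [hno, e2] at e1
  have h3 : (θ i : alternatingGroup (Fin n) → ℂ) 1 = (θ j : alternatingGroup (Fin n) → ℂ) 1 := by
    rw [← hno 1, map_one]
  rw [h3] at e1
  have h4 : (θ j : alternatingGroup (Fin n) → ℂ) 1 ≠ 0 := by
    obtain ⟨k, hk0, hk⟩ := isIrr_apply_one (θ j).2
    rw [hk]
    exact_mod_cast Nat.pos_iff_ne_zero.1 hk0
  apply hij
  apply hQ
  have h5 := mul_right_cancel₀ h4 e1
  exact_mod_cast h5.symm

/-- A family of beta-sets `{a, b i, c i}` with `b i < c i`, `b` strictly increasing. -/
theorem many_family {n : ℕ} (hn : 7 ≤ n) {p m : ℕ} (a : ℕ) (b c : Fin m → ℕ) (hs : ∀ i, a + b i + c i = n + 3)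
    (hbc : ∀ i j, b i < c j) (hb : Function.Injective b) (h5 : n + 3 ≠ a + 5)
    (h : ∀ i, Has p n (QQ a (b i) (c i))) : Many p (alternatingGroup (Fin n)) m := by
  refine many_of_has hn (fun i => QQ a (b i) (c i)) ?_ h
  intro i j hij
  by_contra hne
  have h1 := hs i
  have h2 := hs j
  have h3 := hbc i j
  have h4 : b i ≠ b j := fun h => hne (hb h)
  exact QQ_ne (a := a) (b := b i) (c := c i) (b' := b j) (c' := c j) (by omega) (by omega) h4 (by omega) hij

theorem many_odd {n p k : ℕ} (hn : 7 ≤ n) (hp : p.Prime) (hp2 : Odd p) (h : p * (2 * k + 3) < n + 6) :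
    Many p (alternatingGroup (Fin n)) k := by
  have hp3 : 3 ≤ p := by
    have := hp.two_le
    obtain ⟨x, hx⟩ := hp2
    omega
  have hmul : ∀ i j : Fin k, p * ((i : ℕ) + 2) + p * ((j : ℕ) + 3) ≤ p * (2 * k + 3) := by
    intro i j
    rw [← Nat.mul_add]
    exact Nat.mul_le_mul_left p (by omega)
  have hb2 : ∀ i : Fin k, p * ((i : ℕ) + 2) = p * i + 2 * p := fun i => by ring
  have hb3 : ∀ i : Fin k, p * ((i : ℕ) + 3) = p * i + 3 * p := fun i => by ring
  refine many_family hn (p - 1) (fun i => p * ((i : ℕ) + 2) - 1) (fun i => n + 5 - p * ((i : ℕ) + 3)) ?_ ?_ ?_ ?_ ?_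
  · intro i
    have h1 := hmul i i
    have h2 := hb2 i
    have h3 := hb3 i
    show p - 1 + (p * ((i : ℕ) + 2) - 1) + (n + 5 - p * ((i : ℕ) + 3)) = n + 3
    omega
  · intro i j
    have h1 := hmul i j
    have h2 := hb2 i
    show p * ((i : ℕ) + 2) - 1 < n + 5 - p * ((j : ℕ) + 3)
    omega
  · intro i j hij
    have h2 := hb2 i
    have h3 := hb2 j
    have h4 : p * ((i : ℕ) + 2) - 1 = p * ((j : ℕ) + 2) - 1 := hij
    have h5 : p * (i : ℕ) = p * (j : ℕ) := by omega
    exact Fin.ext (Nat.eq_of_mul_eq_mul_left hp.pos h5)
  · have : p ≤ p * (2 * k + 3) := Nat.le_mul_of_pos_right p (by omega)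
    rcases Nat.eq_zero_or_pos k with hk | hk
    · subst hk
      omega
    · have : p * 5 ≤ p * (2 * k + 3) := Nat.mul_le_mul_left p (by omega)
      omega
  · intro i
    have h1 := hmul i i
    have h2 := hb2 i
    have h3 := hb3 i
    have h4 : 0 < p * ((i : ℕ) + 2) := by positivity
    have e1 : (p - 1) % p = p - 1 := Nat.mod_eq_of_lt (by omega)
    have e2 : (p * ((i : ℕ) + 2) - 1) % p = p - 1 := sub_mod_of (dvd_mul_right _ _) h4 (by omega) (by omega)
    refine has_gd (by omega) hp hp2 (by omega) (by omega) (by omega) (by omega) ?_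
    unfold Gd np
    rw [e1, e2, if_pos rfl]
    have h6 : p * 1 ≤ p * (1 + (if p - 1 = (n + 5 - p * ((i : ℕ) + 3)) % p then 1 else 0) +
        (if p - 1 = (n + 5 - p * ((i : ℕ) + 3)) % p then 1 else 0)) := Nat.mul_le_mul_left p (by omega)
    omega

theorem many_two_even {n k : ℕ} (hn : 9 < n) (he : n % 2 = 0) (h : 4 * k + 3 < n) :
    Many 2 (alternatingGroup (Fin n)) k := by
  refine many_family (by omega) 1 (fun i => 3 + 2 * (i : ℕ)) (fun i => n - 1 - 2 * (i : ℕ)) ?_ ?_ ?_ ?_ ?_
  · intro i
    show 1 + (3 + 2 * (i : ℕ)) + (n - 1 - 2 * (i : ℕ)) = n + 3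
    omega
  · intro i j
    show 3 + 2 * (i : ℕ) < n - 1 - 2 * (j : ℕ)
    omega
  · intro i j hij
    have h4 : 3 + 2 * (i : ℕ) = 3 + 2 * (j : ℕ) := hij
    exact Fin.ext (by omega)
  · omega
  · intro i
    have hi := i.2
    by_cases h0 : (i : ℕ) = 0
    · exact has_two (a := 1) (L := n - 6) (by omega) (by omega) (by omega) (by omega) (by omega) (by omega)
        (by omega) (by omega) (by rw [Nat.even_iff]; omega) (by omega)
        (crit Nat.prime_two (by omega) (by omega) (by omega) (by omega)
          (Gd_res (x := 1) (y := 1) (z := 1) rfl (by omega) (by omega) (by decide)))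
    · exact has_two (a := 1) (L := n - 4 - 2 * (i : ℕ)) (by omega) (by omega) (by omega) (by omega) (by omega)
        (by omega) (by omega) (by omega) (by rw [Nat.even_iff]; omega) (by omega)
        (crit Nat.prime_two (by omega) (by omega) (by omega) (by omega)
          (Gd_res (x := 1) (y := 1) (z := 1) rfl (by omega) (by omega) (by decide)))

theorem many_two_odd {n k : ℕ} (hn : 7 ≤ n) (he : n % 2 = 1) (h : 4 * k ≤ n) :
    Many 2 (alternatingGroup (Fin n)) k := by
  refine many_family (by omega) 0 (fun i => 2 + 2 * (i : ℕ)) (fun i => n + 1 - 2 * (i : ℕ)) ?_ ?_ ?_ ?_ ?_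
  · intro i
    show 0 + (2 + 2 * (i : ℕ)) + (n + 1 - 2 * (i : ℕ)) = n + 3
    omega
  · intro i j
    show 2 + 2 * (i : ℕ) < n + 1 - 2 * (j : ℕ)
    omega
  · intro i j hij
    have h4 : 2 + 2 * (i : ℕ) = 2 + 2 * (j : ℕ) := hij
    exact Fin.ext (by omega)
  · omega
  · intro i
    have hi := i.2
    by_cases h0 : (i : ℕ) = 0
    · exact has_two (a := 0) (L := n - 3) (by omega) (by omega) (by omega) (by omega) (by omega) (by omega)
        (by omega) (by omega) (by rw [Nat.even_iff]; omega) (by omega)
        (crit Nat.prime_two (by omega) (by omega) (by omega) (by omega)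
          (Gd_res (x := 0) (y := 0) (z := 0) rfl (by omega) (by omega) (by decide)))
    · exact has_two (a := 0) (L := n - 1 - 2 * (i : ℕ)) (by omega) (by omega) (by omega) (by omega) (by omega)
        (by omega) (by omega) (by omega) (by rw [Nat.even_iff]; omega) (by omega)
        (crit Nat.prime_two (by omega) (by omega) (by omega) (by omega)
          (Gd_res (x := 0) (y := 0) (z := 0) rfl (by omega) (by omega) (by decide)))

/-! ### small cases -/

theorem many_8 : Many 2 (alternatingGroup (Fin 8)) 3 := by
  refine many_of_has (by norm_num) ![QQ 0 3 8, QQ 0 4 7, QQ 1 3 7] (by decide) ?_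
  intro i
  fin_cases i
  · exact has_two (a := 0) (b := 3) (c := 8) (L := 4) (by norm_num) (by decide) (by decide) (by decide)
      (by decide) (by decide) (by decide) (by decide) (by decide) (by decide)
      (dvd_dg (t := 10) (by decide) (by decide) (by decide) (by decide +kernel))
  · exact has_two (a := 0) (b := 4) (c := 7) (L := 6) (by norm_num) (by decide) (by decide) (by decide)
      (by decide) (by decide) (by decide) (by decide) (by decide) (by decide)
      (dvd_dg (t := 14) (by decide) (by decide) (by decide) (by decide +kernel))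
  · exact has_four (a := 1) (b := 3) (c := 7) (by norm_num) (by decide) (by decide) (by decide)
      (dvd_dg (t := 16) (by decide) (by decide) (by decide) (by decide +kernel))

theorem many_9 : Many 2 (alternatingGroup (Fin 9)) 3 := by
  refine many_of_has (by norm_num) ![QQ 0 2 10, QQ 0 4 8, QQ 0 5 7] (by decide) ?_
  intro i
  fin_cases i
  · exact has_two (a := 0) (b := 2) (c := 10) (L := 4) (by norm_num) (by decide) (by decide) (by decide)
      (by decide) (by decide) (by decide) (by decide) (by decide) (by decide)
      (dvd_dg (t := 4) (by decide) (by decide) (by decide) (by decide +kernel))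
  · exact has_two (a := 0) (b := 4) (c := 8) (L := 6) (by norm_num) (by decide) (by decide) (by decide)
      (by decide) (by decide) (by decide) (by decide) (by decide) (by decide)
      (dvd_dg (t := 24) (by decide) (by decide) (by decide) (by decide +kernel))
  · exact has_two (a := 0) (b := 5) (c := 7) (L := 6) (by norm_num) (by decide) (by decide) (by decide)
      (by decide) (by decide) (by decide) (by decide) (by decide) (by decide)
      (dvd_dg (t := 21) (by decide) (by decide) (by decide) (by decide +kernel))

theorem many_10 : Many 2 (alternatingGroup (Fin 10)) 3 := by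
  refine many_of_has (by norm_num) ![QQ 0 5 8, QQ 1 2 10, QQ 1 3 9] (by decide) ?_
  intro i
  fin_cases i
  · exact has_two (a := 0) (b := 5) (c := 8) (L := 6) (by norm_num) (by decide) (by decide) (by decide)
      (by decide) (by decide) (by decide) (by decide) (by decide) (by decide)
      (dvd_dg (t := 45) (by decide) (by decide) (by decide) (by decide +kernel))
  · exact has_two (a := 1) (b := 2) (c := 10) (L := 4) (by norm_num) (by decide) (by decide) (by decide)
      (by decide) (by decide) (by decide) (by decide) (by decide) (by decide)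
      (dvd_dg (t := 18) (by decide) (by decide) (by decide) (by decide +kernel))
  · exact has_two (a := 1) (b := 3) (c := 9) (L := 4) (by norm_num) (by decide) (by decide) (by decide)
      (by decide) (by decide) (by decide) (by decide) (by decide) (by decide)
      (dvd_dg (t := 80) (by decide) (by decide) (by decide) (by decide +kernel))

theorem many_11 : Many 2 (alternatingGroup (Fin 11)) 3 := by
  refine many_of_has (by norm_num) ![QQ 0 2 12, QQ 0 3 11, QQ 0 4 10] (by decide) ?_
  intro i
  fin_cases i
  · exact has_two (a := 0) (b := 2) (c := 12) (L := 4) (by norm_num) (by decide) (by decide) (by decide)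
      (by decide) (by decide) (by decide) (by decide) (by decide) (by decide)
      (dvd_dg (t := 5) (by decide) (by decide) (by decide) (by decide +kernel))
  · exact has_two (a := 0) (b := 3) (c := 11) (L := 4) (by norm_num) (by decide) (by decide) (by decide)
      (by decide) (by decide) (by decide) (by decide) (by decide) (by decide)
      (dvd_dg (t := 22) (by decide) (by decide) (by decide) (by decide +kernel))
  · exact has_two (a := 0) (b := 4) (c := 10) (L := 8) (by norm_num) (by decide) (by decide) (by decide)
      (by decide) (by decide) (by decide) (by decide) (by decide) (by decide)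
      (dvd_dg (t := 55) (by decide) (by decide) (by decide) (by decide +kernel))

theorem many_12 : Many 2 (alternatingGroup (Fin 12)) 3 := by
  refine many_of_has (by norm_num) ![QQ 0 3 12, QQ 0 4 11, QQ 0 7 8] (by decide) ?_
  intro i
  fin_cases i
  · exact has_two (a := 0) (b := 3) (c := 12) (L := 4) (by norm_num) (by decide) (by decide) (by decide)
      (by decide) (by decide) (by decide) (by decide) (by decide) (by decide)
      (dvd_dg (t := 27) (by decide) (by decide) (by decide) (by decide +kernel))
  · exact has_two (a := 0) (b := 4) (c := 11) (L := 6) (by norm_num) (by decide) (by decide) (by decide)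
      (by decide) (by decide) (by decide) (by decide) (by decide) (by decide)
      (dvd_dg (t := 77) (by decide) (by decide) (by decide) (by decide +kernel))
  · exact has_four (a := 0) (b := 7) (c := 8) (by norm_num) (by decide) (by decide) (by decide)
      (dvd_dg (t := 33) (by decide) (by decide) (by decide) (by decide +kernel))

theorem many_14 : Many 2 (alternatingGroup (Fin 14)) 3 := by
  refine many_of_has (by norm_num) ![QQ 1 2 14, QQ 1 3 13, QQ 1 4 12] (by decide) ?_
  intro i
  fin_cases i
  · exact has_two (a := 1) (b := 2) (c := 14) (L := 4) (by norm_num) (by decide) (by decide) (by decide)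
      (by decide) (by decide) (by decide) (by decide) (by decide) (by decide)
      (dvd_dg (t := 39) (by decide) (by decide) (by decide) (by decide +kernel))
  · exact has_two (a := 1) (b := 3) (c := 13) (L := 4) (by norm_num) (by decide) (by decide) (by decide)
      (by decide) (by decide) (by decide) (by decide) (by decide) (by decide)
      (dvd_dg (t := 280) (by decide) (by decide) (by decide) (by decide +kernel))
  · exact has_two (a := 1) (b := 4) (c := 12) (L := 6) (by norm_num) (by decide) (by decide) (by decide)
      (by decide) (by decide) (by decide) (by decide) (by decide) (by decide)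
      (dvd_dg (t := 1001) (by decide) (by decide) (by decide) (by decide +kernel))

theorem many_16 : Many 2 (alternatingGroup (Fin 16)) 4 := by
  refine many_of_has (by norm_num) ![QQ 0 3 16, QQ 0 4 15, QQ 0 5 14, QQ 0 6 13] (by decide) ?_
  intro i
  fin_cases i
  · exact has_two (a := 0) (b := 3) (c := 16) (L := 4) (by norm_num) (by decide) (by decide) (by decide)
      (by decide) (by decide) (by decide) (by decide) (by decide) (by decide)
      (dvd_dg (t := 52) (by decide) (by decide) (by decide) (by decide +kernel))
  · exact has_two (a := 0) (b := 4) (c := 15) (L := 6) (by norm_num) (by decide) (by decide) (by decide)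
      (by decide) (by decide) (by decide) (by decide) (by decide) (by decide)
      (dvd_dg (t := 220) (by decide) (by decide) (by decide) (by decide +kernel))
  · exact has_two (a := 0) (b := 5) (c := 14) (L := 6) (by norm_num) (by decide) (by decide) (by decide)
      (by decide) (by decide) (by decide) (by decide) (by decide) (by decide)
      (dvd_dg (t := 630) (by decide) (by decide) (by decide) (by decide +kernel))
  · exact has_two (a := 0) (b := 6) (c := 13) (L := 8) (by norm_num) (by decide) (by decide) (by decide)
      (by decide) (by decide) (by decide) (by decide) (by decide) (by decide)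
      (dvd_dg (t := 1274) (by decide) (by decide) (by decide) (by decide +kernel))

theorem many_18 : Many 2 (alternatingGroup (Fin 18)) 4 := by
  refine many_of_has (by norm_num) ![QQ 0 5 16, QQ 0 6 15, QQ 0 7 14, QQ 0 8 13] (by decide) ?_
  intro i
  fin_cases i
  · exact has_two (a := 0) (b := 5) (c := 16) (L := 6) (by norm_num) (by decide) (by decide) (by decide)
      (by decide) (by decide) (by decide) (by decide) (by decide) (by decide)
      (dvd_dg (t := 1122) (by decide) (by decide) (by decide) (by decide +kernel))
  · exact has_two (a := 0) (b := 6) (c := 15) (L := 8) (by norm_num) (by decide) (by decide) (by decide)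
      (by decide) (by decide) (by decide) (by decide) (by decide) (by decide)
      (dvd_dg (t := 2754) (by decide) (by decide) (by decide) (by decide +kernel))
  · exact has_two (a := 0) (b := 7) (c := 14) (L := 8) (by norm_num) (by decide) (by decide) (by decide)
      (by decide) (by decide) (by decide) (by decide) (by decide) (by decide)
      (dvd_dg (t := 4998) (by decide) (by decide) (by decide) (by decide +kernel))
  · exact has_two (a := 0) (b := 8) (c := 13) (L := 10) (by norm_num) (by decide) (by decide) (by decide)
      (by decide) (by decide) (by decide) (by decide) (by decide) (by decide)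
      (dvd_dg (t := 6630) (by decide) (by decide) (by decide) (by decide +kernel))

/-! ### assembly -/

theorem pow_bound_two {k : ℕ} (hk : 5 ≤ k) : 4 * k + 3 < 2 ^ k := by
  induction k, hk using Nat.le_induction with
  | base => norm_num
  | succ k hk ih => rw [pow_succ]; omega

theorem pow_bound_odd {p k : ℕ} (hp : 3 ≤ p) (hk : 3 ≤ k) : p * (2 * k + 3) ≤ p ^ k := by
  induction k, hk using Nat.le_induction with
  | base =>
    have h1 : p ^ 3 = p * (p * p) := by ring
    rw [h1]
    exact Nat.mul_le_mul_left p (by nlinarith)
  | succ k hk ih =>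
    rw [pow_succ]
    have h1 : p * (2 * (k + 1) + 3) ≤ p * (2 * k + 3) * p := by
      rw [Nat.mul_assoc]
      exact Nat.mul_le_mul_left p (by nlinarith)
    exact h1.trans (Nat.mul_le_mul_right p ih)

theorem many_alt {n p k : ℕ} (hp : p.Prime) (hk : 3 ≤ k) (h : p ^ k ≤ n) (h' : n < p ^ (k + 1)) :
    Many p (alternatingGroup (Fin n)) k := by
  have h8 : 8 ≤ n := by
    have h1 : 2 ^ 3 ≤ p ^ k := (Nat.pow_le_pow_left hp.two_le 3).trans (Nat.pow_le_pow_right hp.pos hk)
    omega
  rcases hp.eq_two_or_odd' with rfl | hp2
  · rcases Nat.lt_or_ge k 5 with h5 | h5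
    · obtain rfl | rfl : k = 3 ∨ k = 4 := by omega
      · norm_num at h h'
        by_cases h1 : n = 8
        · subst h1; exact many_8
        by_cases h2 : n = 9
        · subst h2; exact many_9
        by_cases h3 : n = 10
        · subst h3; exact many_10
        by_cases h4 : n = 11
        · subst h4; exact many_11
        by_cases h5 : n = 12
        · subst h5; exact many_12
        by_cases h6 : n = 14
        · subst h6; exact many_14
        exact many_two_odd (by omega) (by omega) (by omega)
      · norm_num at h h'
        by_cases h1 : n = 16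
        · subst h1; exact many_16
        by_cases h2 : n = 18
        · subst h2; exact many_18
        rcases Nat.mod_two_eq_zero_or_one n with h3 | h3
        · exact many_two_even (by omega) h3 (by omega)
        · exact many_two_odd (by omega) h3 (by omega)
    · have h6 := pow_bound_two h5
      rcases Nat.mod_two_eq_zero_or_one n with h3 | h3
      · exact many_two_even (by omega) h3 (by omega)
      · exact many_two_odd (by omega) h3 (by omega)
  · have hp3 : 3 ≤ p := by
      have := hp.two_le
      obtain ⟨x, hx⟩ := hp2
      omega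
    have := pow_bound_odd hp3 hk
    exact many_odd (by omega) hp hp2 (by omega)

/-- `A_5`, `p = 2` -/
theorem dlLe_five : DlLe 2 1 (alternatingGroup (Fin 5)) := by
  have : Fact (Nat.Prime 2) := ⟨Nat.prime_two⟩
  intro P
  have hcard : Nat.card P = 2 ^ 2 := by
    rw [P.card_eq_multiplicity, nat_card_alternatingGroup]
    have : Nat.card (Fin 5) = 5 := by simp
    rw [this]
    have h60 : Nat.factorial 5 / 2 = 60 := by decide
    rw [h60]
    have : Nat.factorization 60 2 = 2 := by
      rw [Nat.factorization_def 60 Nat.prime_two]
      have : (60 : ℕ) = 2 ^ 2 * 15 := by norm_num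
      rw [this, padicValNat.mul (by norm_num) (by norm_num), padicValNat.prime_pow,
        padicValNat.eq_zero_of_not_dvd (by norm_num)]
    rw [this]
  rw [derivedSeries_one, eq_bot_iff, commutator_def, Subgroup.commutator_le]
  intro a _ b _
  rw [Subgroup.mem_bot, commutatorElement_eq_one_iff_mul_comm]
  exact (IsPGroup.isMulCommutative_of_card_eq_prime_sq hcard).is_comm.comm a b

/-- `A_6`, `p = 2` -/
theorem many_six : Many 2 (alternatingGroup (Fin 6)) 2 := by
  obtain ⟨α, -, hα⟩ := exists_alt_inv (n := 6) (a := 1) (b := 2) (c := 6) (by norm_num) (by norm_num) (by norm_num)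
    (by norm_num)
  obtain ⟨β, -, hβ⟩ := exists_alt_inv (n := 6) (a := 1) (b := 3) (c := 5) (by norm_num) (by norm_num) (by norm_num)
    (by norm_num)
  have d1 : dg 6 1 2 6 = 10 := by
    have h := dg_formula (n := 6) (a := 1) (b := 2) (c := 6) (by norm_num) (by norm_num) (by norm_num)
    generalize dg 6 1 2 6 = x at h ⊢
    norm_num [Nat.factorial] at h
    omega
  have d2 : dg 6 1 3 5 = 16 := by
    have h := dg_formula (n := 6) (a := 1) (b := 3) (c := 5) (by norm_num) (by norm_num) (by norm_num)
    generalize dg 6 1 3 5 = x at h ⊢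
    norm_num [Nat.factorial] at h
    omega
  have h1 : charDegree (α : alternatingGroup (Fin 6) → ℂ) = 10 := by
    rcases hα with h | ⟨-, h⟩
    · omega
    · exfalso
      obtain ⟨g, hg⟩ := (Equiv.Perm.exists_with_cycleType_iff (α := Fin 6) (m := {6})).2
        ⟨by simp, by simp⟩
      have h3 := h g (by
        rw [Equiv.Perm.mem_alternatingGroup, Equiv.Perm.sign_of_cycleType, hg]
        decide)
      refine FM_cycle_ne (n := 6) (a := 1) (b := 2) (c := 6) (L := 6) (by norm_num) (by norm_num) (by norm_num)
        (by norm_num) (by norm_num) (by norm_num) (by norm_num) (by norm_num) ?_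
      rw [H614.ty_eq, hg, Fintype.card_fin] at h3
      simpa using h3
  have h2 : charDegree (β : alternatingGroup (Fin 6) → ℂ) = 16 ∨
      charDegree (β : alternatingGroup (Fin 6) → ℂ) = 8 := by
    rcases hβ with h | ⟨h, -⟩ <;> omega
  refine Many.of_degrees ![α, β] ?_ ?_
  · intro i
    fin_cases i
    · show 2 ∣ charDegree (α : alternatingGroup (Fin 6) → ℂ)
      omega
    · show 2 ∣ charDegree (β : alternatingGroup (Fin 6) → ℂ)
      omega
  · intro i j hij
    fin_cases i <;> fin_cases j
    · rfl
    · have h3 : charDegree (α : alternatingGroup (Fin 6) → ℂ) = charDegree (β : alternatingGroup (Fin 6) → ℂ) := hij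
      omega
    · have h3 : charDegree (β : alternatingGroup (Fin 6) → ℂ) = charDegree (α : alternatingGroup (Fin 6) → ℂ) := hij
      omega
    · rfl

/-- **The alternating groups.** -/
theorem row_alt (n : ℕ) (hn : 5 ≤ n) {p : ℕ} (hp : p.Prime) (hd : p ∣ Nat.card (alternatingGroup (Fin n))) :
    Row p (alternatingGroup (Fin n)) := by
  have hpn := le_of_dvd hp hd
  have : Fact p.Prime := ⟨hp⟩
  have h1 : p ^ Nat.log p n ≤ n := Nat.pow_log_le_self p (by omega)
  have h2 : n < p ^ (Nat.log p n + 1) := Nat.lt_pow_succ_log_self hp.one_lt n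
  have hk : 1 ≤ Nat.log p n := Nat.log_pos hp.one_lt hpn
  revert h1 h2 hk
  generalize Nat.log p n = k
  intro h1 h2 hk
  rcases Nat.lt_or_ge k 3 with h3 | h3
  · obtain rfl | rfl : k = 1 ∨ k = 2 := by omega
    · exact Row.of_im (dlLe_alt h2) (im_alt hn hd)
    · rcases Nat.lt_or_ge n 7 with h7 | h7
      · have hp2 : p = 2 := by
          have := hp.two_le
          by_contra hne
          have : 3 ^ 2 ≤ p ^ 2 := Nat.pow_le_pow_left (by omega) 2
          omega
        subst hp2
        obtain rfl | rfl : n = 5 ∨ n = 6 := by omega
        · exact Row.of_im dlLe_five (im_alt hn hd)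
        · exact ⟨2, dlLe_alt h2, many_six⟩
      · exact Row.of_twoStrict (dlLe_alt h2) (two_alt h7 hp hpn)
  · exact ⟨k, dlLe_alt h2, many_alt hp h3 h1 h2⟩

theorem row_alt' {S : Type*} [Group S] [Finite S] (h : IsAlternating S) {p : ℕ} (hp : p.Prime)
    (hd : p ∣ Nat.card S) : Row p S := by
  obtain ⟨n, hn, ⟨e⟩⟩ := h
  have : Fact p.Prime := ⟨hp⟩
  rw [Nat.card_congr e.toEquiv] at hd
  exact Row.of_equiv e (row_alt n hn hp hd)

end Cfsg.Agent.H352.Dl
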